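import Cfsg.Agent.H847.Bs.Defs2

/-!
# S5733, BS09: the proportion of large block elements in `GL(V)` (helper41)

`count_gl` from the combinatorial lemma (BS02), the recursion (BS04) and the count of irreducible elements (BS05).
-/

set_option autoImplicit false

namespace Cfsg.Agent.H41.Bs

open Cfsg.Agent.H847.Bs Module

section
variable {F V V' : Type*} [Field F] [AddCommGroup V] [Module F V] [AddCommGroup V'] [Module F V']

theorem inv_comap (e : V ≃ₗ[F] V') (x : V ≃ₗ[F] V) {Y' : Submodule F V'} (h : Inv (e.symm ≪≫ₗ x ≪≫ₗ e) Y') :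
    Inv x (Y'.comap (e : V →ₗ[F] V')) := by
  intro v hv
  have h1 := h (e v) hv
  have h2 : (e.symm ≪≫ₗ x ≪≫ₗ e) (e v) = e (x v) := by simp
  rw [h2] at h1
  exact h1

theorem inv_map (e : V ≃ₗ[F] V') (x : V ≃ₗ[F] V) {Y : Submodule F V} (h : Inv x Y) :
    Inv (e.symm ≪≫ₗ x ≪≫ₗ e) (Y.map (e : V →ₗ[F] V')) := by
  rintro _ ⟨v, hv, rfl⟩
  exact ⟨x v, h v hv, by simp⟩

theorem finrank_comap (e : V ≃ₗ[F] V') (Y' : Submodule F V') :
    finrank F (Y'.comap (e : V →ₗ[F] V')) = finrank F Y' := by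
  rw [← LinearEquiv.finrank_map_eq e, Submodule.map_comap_eq_of_surjective e.surjective]

theorem comap_eq_bot (e : V ≃ₗ[F] V') {Y' : Submodule F V'} (h : Y'.comap (e : V →ₗ[F] V') = ⊥) : Y' = ⊥ := by
  rw [← Submodule.map_comap_eq_of_surjective e.surjective Y', h, Submodule.map_bot]

theorem comap_eq_top (e : V ≃ₗ[F] V') {Y' : Submodule F V'} (h : Y'.comap (e : V →ₗ[F] V') = ⊤) : Y' = ⊤ := by
  rw [← Submodule.map_comap_eq_of_surjective e.surjective Y', h, Submodule.map_top]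
  exact LinearMap.range_eq_top.2 e.surjective

theorem comap_map (e : V ≃ₗ[F] V') (Y : Submodule F V) :
    (Y.map (e : V →ₗ[F] V')).comap (e : V →ₗ[F] V') = Y := Submodule.comap_map_eq_of_injective e.injective Y

theorem map_comap (e : V ≃ₗ[F] V') (Y : Submodule F V') :
    (Y.comap (e : V →ₗ[F] V')).map (e : V →ₗ[F] V') = Y := Submodule.map_comap_eq_of_surjective e.surjective Y

/-- transport -/
theorem SG_map (e : V ≃ₗ[F] V') {K d : ℕ} {x : V ≃ₗ[F] V} (hx : x ∈ SG F V K d) :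
    e.symm ≪≫ₗ x ≪≫ₗ e ∈ SG F V' K d := by
  obtain ⟨h1, h2, h3, h4⟩ := hx
  have hV : finrank F V = finrank F V' := e.finrank_eq
  refine ⟨fun Y hY hb => ?_, fun Y hY hb => ?_, fun X hX => ?_, fun Y hY hb hm => ?_⟩
  · rw [← finrank_comap e]
    exact h1 _ (inv_comap e x hY) fun h => hb (comap_eq_bot e h)
  · rw [← finrank_comap e, ← hV]
    exact h2 _ (inv_comap e x hY) fun h => hb (comap_eq_top e h)
  · rw [← finrank_comap e]
    refine h3 _ ⟨inv_comap e x hX.inv, fun h => hX.ne_bot (comap_eq_bot e h), fun Z hZ hZi => ?_⟩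
    rcases hX.min (Z.map (e : V →ₗ[F] V')) (by rw [← map_comap e X]; exact Submodule.map_mono hZ) (inv_map e x hZi) with h | h
    · left
      rw [← comap_map e Z, h, Submodule.comap_bot]
      exact LinearMap.ker_eq_bot.2 e.injective
    · right
      rw [← comap_map e Z, h]
  · rw [← finrank_comap e, ← hV]
    refine h4 _ (inv_comap e x hY) (fun h => hb (comap_eq_top e h)) fun Z hZ hYZ => ?_
    rcases hm (Z.map (e : V →ₗ[F] V')) (inv_map e x hZ) (by rw [← map_comap e Y]; exact Submodule.map_mono hYZ) with h | h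
    · left
      rw [← comap_map e Z, h]
    · right
      rw [← comap_map e Z, h, Submodule.comap_top]

theorem card_SG_le [Finite V'] (e : V ≃ₗ[F] V') (K d : ℕ) : Nat.card (SG F V K d) ≤ Nat.card (SG F V' K d) := by
  have : Finite (V' ≃ₗ[F] V') := Finite.of_injective (fun x => (x : V' → V')) (fun x y h => LinearEquiv.ext (congrFun h))
  refine Nat.card_le_card_of_injective (fun x : SG F V K d => (⟨_, SG_map e x.2⟩ : SG F V' K d)) ?_
  intro x y h
  have h1 : e.symm ≪≫ₗ x.1 ≪≫ₗ e = e.symm ≪≫ₗ y.1 ≪≫ₗ e := congrArg Subtype.val h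
  apply Subtype.ext
  ext v
  have h2 := LinearEquiv.congr_fun h1 (e v)
  simpa using h2

theorem card_GL_le [Finite V'] (e : V ≃ₗ[F] V') : Nat.card (V ≃ₗ[F] V) ≤ Nat.card (V' ≃ₗ[F] V') := by
  have : Finite (V' ≃ₗ[F] V') := Finite.of_injective (fun x => (x : V' → V')) (fun x y h => LinearEquiv.ext (congrFun h))
  refine Nat.card_le_card_of_injective (fun x => e.symm ≪≫ₗ x ≪≫ₗ e) ?_
  intro x y h
  ext v
  have h2 := LinearEquiv.congr_fun h (e v)
  simpa using h2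

theorem SG_mono {K d : ℕ} : SG F V K d ⊆ SG F V K (d + 1) := by
  rintro x ⟨h1, h2, h3, h4⟩
  exact ⟨h1, h2, fun X hX => (h3 X hX).trans (Nat.le_succ d), fun Y hY hb hm => (h4 Y hY hb hm).trans (by omega)⟩

end

/-- BS02 -/
def CombSt : Prop := ∃ K₀ : ℕ, ∀ K : ℕ, K₀ ≤ K → ∀ p : ℕ → ℕ → ℝ, (∀ N m, 0 ≤ p N m) → (∀ m, 1 ≤ p 0 m) →
  (∀ N m, p N m ≤ p N (m + 1)) → (∀ N m, K < m → m ≤ N → p N (m - 1) + ar m / m * p (N - m) (m - 1) ≤ p N m) →
  ∀ N, K < N → 1 / (16 * (K + 1) : ℝ) ≤ p N N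

/-- BS04 -/
def RecSt : Prop := ∀ (F V : Type) [Field F] [Finite F] [AddCommGroup V] [Module F V] [Module.Finite F V]
  {D U : Submodule F V} (h : IsCompl D U) (d K : ℕ), finrank F D = d → K < d → ∀ (X : Set (D ≃ₗ[F] D)) (Y : Set (U ≃ₗ[F] U)),
  (∀ x ∈ X, Irr x ⊤) → Y ⊆ SG F U K (d - 1) →
  Nat.card (V ≃ₗ[F] V) * Nat.card X * Nat.card Y ≤
      Nat.card (D ≃ₗ[F] D) * Nat.card (U ≃ₗ[F] U) * Nat.card (cset ⊤ h X Y) ∧
    cset ⊤ h X Y ⊆ SG F V K d ∧ Disjoint (cset ⊤ h X Y) (SG F V K (d - 1))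

/-- BS05 -/
def IrrSt : Prop := ∀ (F V : Type) [Field F] [Finite F] [AddCommGroup V] [Module F V] [Module.Finite F V] (d : ℕ),
  1 ≤ d → finrank F V = d → ar d / d * Nat.card (V ≃ₗ[F] V) ≤ (Nat.card {x : V ≃ₗ[F] V // Irr x ⊤} : ℝ)

/-- BS09 -/
theorem count_gl_of (hcomb : CombSt) (hrec : RecSt) (hirr : IrrSt) :
    ∃ c : ℝ, 0 < c ∧ ∃ K₀ : ℕ, ∀ (F V : Type) [Field F] [Finite F] [AddCommGroup V] [Module F V] [Module.Finite F V]
      (K : ℕ), K₀ ≤ K → K < finrank F V →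
      c / (K + 1) * Nat.card (V ≃ₗ[F] V) ≤ (Nat.card ↥(SG F V K (finrank F V)) : ℝ) := by
  obtain ⟨K₀, hK₀⟩ := hcomb
  refine ⟨1 / 16, by norm_num, K₀, ?_⟩
  intro F V _ _ _ _ _ K hK hKV
  have hfin : ∀ N : ℕ, Finite ((Fin N → F) ≃ₗ[F] (Fin N → F)) := fun N =>
    Finite.of_injective (fun x => (x : (Fin N → F) → (Fin N → F))) (fun x y h => LinearEquiv.ext (congrFun h))
  have hpos : ∀ N : ℕ, (0 : ℝ) < Nat.card ((Fin N → F) ≃ₗ[F] (Fin N → F)) := fun N => by
    have := hfin N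
    exact_mod_cast Nat.card_pos
  let p : ℕ → ℕ → ℝ := fun N m => (Nat.card ↥(SG F (Fin N → F) K m) : ℝ) / Nat.card ((Fin N → F) ≃ₗ[F] (Fin N → F))
  have h1 := hK₀ K hK p (fun N m => by positivity) ?_ ?_ ?_ (finrank F V) hKV
  · -- transport
    have e : V ≃ₗ[F] (Fin (finrank F V) → F) := (Module.finBasis F V).equivFun
    have hVf : Finite V := Module.finite_of_finite F
    have h2 := card_GL_le e
    have h3 := card_SG_le e.symm K (finrank F V)
    have h4 : (1 / (16 * ((K : ℝ) + 1))) * Nat.card ((Fin (finrank F V) → F) ≃ₗ[F] (Fin (finrank F V) → F)) ≤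
        Nat.card ↥(SG F (Fin (finrank F V) → F) K (finrank F V)) := by
      rwa [le_div_iff₀ (hpos _)] at h1
    have h5 : (1 / 16 : ℝ) / (K + 1) = 1 / (16 * ((K : ℝ) + 1)) := by
      rw [div_div]
    rw [h5]
    have h6 : (0 : ℝ) ≤ 1 / (16 * ((K : ℝ) + 1)) := by positivity
    calc 1 / (16 * ((K : ℝ) + 1)) * Nat.card (V ≃ₗ[F] V)
        ≤ 1 / (16 * ((K : ℝ) + 1)) * Nat.card ((Fin (finrank F V) → F) ≃ₗ[F] (Fin (finrank F V) → F)) := by
          apply mul_le_mul_of_nonneg_left _ h6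
          exact_mod_cast h2
      _ ≤ _ := h4
      _ ≤ _ := by exact_mod_cast h3
  · -- dimension zero
    intro m
    have h0 : SG F (Fin 0 → F) K m = Set.univ := by
      ext x
      simp only [Set.mem_univ, iff_true]
      have hsub : ∀ Y : Submodule F (Fin 0 → F), Y = ⊥ := fun Y => by
        rw [eq_bot_iff]
        intro v _
        rw [Submodule.mem_bot]
        exact Subsingleton.elim _ _
      have htop : ∀ Y : Submodule F (Fin 0 → F), Y = ⊤ := fun Y => by rw [hsub Y, ← hsub ⊤]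
      exact ⟨fun Y _ hb => absurd (hsub Y) hb, fun Y _ hb => absurd (htop Y) hb, fun X hX => absurd (hsub X) hX.ne_bot,
        fun Y _ hb => absurd (htop Y) hb⟩
    show (1 : ℝ) ≤ (Nat.card ↥(SG F (Fin 0 → F) K m) : ℝ) / _
    rw [le_div_iff₀ (hpos 0), one_mul, h0, Nat.card_congr (Equiv.Set.univ _)]
  · intro N m
    have := hfin N
    show (_ : ℝ) / _ ≤ _ / _
    rw [div_le_div_iff_of_pos_right (hpos N)]
    exact_mod_cast Nat.card_le_card_of_injective (Set.inclusion (SG_mono)) (Set.inclusion_injective _)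
  · intro N m hKm hmN
    have := hfin N
    -- a decomposition
    obtain ⟨D, hD⟩ : ∃ D : Submodule F (Fin N → F), finrank F D = m := by
      refine ⟨Submodule.span F (Set.range ((Pi.basisFun F (Fin N)) ∘ Fin.castLE hmN)), ?_⟩
      rw [finrank_span_eq_card ((Pi.basisFun F (Fin N)).linearIndependent.comp _ (Fin.castLE_injective hmN)),
        Fintype.card_fin]
    obtain ⟨U, hDU⟩ := Submodule.exists_isCompl D
    have hU : finrank F U = N - m := by
      have h2 := Submodule.finrank_add_eq_of_isCompl hDU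
      rw [hD, Module.finrank_fin_fun] at h2
      omega
    obtain ⟨h2, h3, h4⟩ := hrec F (Fin N → F) hDU m K hD hKm {x | Irr x ⊤} (SG F U K (m - 1)) (fun x hx => hx) le_rfl
    set C := cset ⊤ hDU {x | Irr x ⊤} (SG F U K (m - 1)) with hC
    have hUf : Finite U := Module.finite_of_finite F
    have hDf : Finite D := Module.finite_of_finite F
    have hGDf : Finite (D ≃ₗ[F] D) :=
      Finite.of_injective (fun x => (x : D → D)) (fun x y h => LinearEquiv.ext (congrFun h))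
    have hGUf : Finite (U ≃ₗ[F] U) :=
      Finite.of_injective (fun x => (x : U → U)) (fun x y h => LinearEquiv.ext (congrFun h))
    have hGD : (0 : ℝ) < Nat.card (D ≃ₗ[F] D) := by exact_mod_cast Nat.card_pos
    have hGU : (0 : ℝ) < Nat.card (U ≃ₗ[F] U) := by exact_mod_cast Nat.card_pos
    -- disjoint union
    have h5 : Nat.card ↥(SG F (Fin N → F) K (m - 1)) + Nat.card ↥C ≤ Nat.card ↥(SG F (Fin N → F) K m) := by
      have hsub : SG F (Fin N → F) K (m - 1) ∪ C ⊆ SG F (Fin N → F) K m := by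
        apply Set.union_subset _ h3
        have hm1 : m - 1 + 1 = m := by omega
        conv_rhs => rw [← hm1]
        exact SG_mono
      rw [Nat.card_coe_set_eq, Nat.card_coe_set_eq, Nat.card_coe_set_eq, ← Set.ncard_union_eq h4.symm (Set.toFinite _) (Set.toFinite _)]
      exact Set.ncard_le_ncard hsub (Set.toFinite _)
    have h6 := hirr F D m (by omega) hD
    have e : (Fin (N - m) → F) ≃ₗ[F] U := LinearEquiv.ofFinrankEq _ _ (by rw [Module.finrank_fin_fun, hU])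
    have h7 := card_SG_le e K (m - 1)
    have h8 := card_GL_le e.symm
    have hX : (Nat.card ↥({x | Irr x ⊤} : Set (D ≃ₗ[F] D)) : ℝ) = Nat.card {x : D ≃ₗ[F] D // Irr x ⊤} := rfl
    show (Nat.card ↥(SG F (Fin N → F) K (m - 1)) : ℝ) / Nat.card ((Fin N → F) ≃ₗ[F] (Fin N → F)) +
      ar m / m * ((Nat.card ↥(SG F (Fin (N - m) → F) K (m - 1)) : ℝ) / Nat.card ((Fin (N - m) → F) ≃ₗ[F] (Fin (N - m) → F))) ≤
      (Nat.card ↥(SG F (Fin N → F) K m) : ℝ) / Nat.card ((Fin N → F) ≃ₗ[F] (Fin N → F))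
    have h9 : ar m / m ≤ (Nat.card {x : D ≃ₗ[F] D // Irr x ⊤} : ℝ) / Nat.card (D ≃ₗ[F] D) := by
      rwa [le_div_iff₀ hGD]
    have h10 : (Nat.card ↥(SG F (Fin (N - m) → F) K (m - 1)) : ℝ) / Nat.card ((Fin (N - m) → F) ≃ₗ[F] (Fin (N - m) → F)) ≤
        (Nat.card ↥(SG F U K (m - 1)) : ℝ) / Nat.card (U ≃ₗ[F] U) := by
      apply div_le_div₀ (by positivity) (by exact_mod_cast h7) hGU (by exact_mod_cast h8)
    have h11 : (Nat.card {x : D ≃ₗ[F] D // Irr x ⊤} : ℝ) / Nat.card (D ≃ₗ[F] D) *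
        ((Nat.card ↥(SG F U K (m - 1)) : ℝ) / Nat.card (U ≃ₗ[F] U)) ≤
        (Nat.card ↥C : ℝ) / Nat.card ((Fin N → F) ≃ₗ[F] (Fin N → F)) := by
      rw [div_mul_div_comm, div_le_div_iff₀ (mul_pos hGD hGU) (hpos N)]
      have h12 : ((Nat.card ((Fin N → F) ≃ₗ[F] (Fin N → F)) * Nat.card ↥({x | Irr x ⊤} : Set (D ≃ₗ[F] D)) *
          Nat.card ↥(SG F U K (m - 1)) : ℕ) : ℝ) ≤
          ((Nat.card (D ≃ₗ[F] D) * Nat.card (U ≃ₗ[F] U) * Nat.card ↥C : ℕ) : ℝ) := by exact_mod_cast h2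
      push_cast at h12
      rw [hX] at h12
      nlinarith [h12]
    have h13 : ar m / m * ((Nat.card ↥(SG F (Fin (N - m) → F) K (m - 1)) : ℝ) /
        Nat.card ((Fin (N - m) → F) ≃ₗ[F] (Fin (N - m) → F))) ≤
        (Nat.card ↥C : ℝ) / Nat.card ((Fin N → F) ≃ₗ[F] (Fin N → F)) := by
      refine le_trans ?_ h11
      refine (mul_le_mul_of_nonneg_right h9 (by positivity)).trans ?_
      exact mul_le_mul_of_nonneg_left h10 (by positivity)
    refine (add_le_add_right h13 _).trans ?_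
    rw [← add_div, div_le_div_iff_of_pos_right (hpos N)]
    exact_mod_cast h5

end Cfsg.Agent.H41.Bs
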